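import Mathlib
import Cfsg.Agent.Lib.Helper9.S3805.Defs
import Cfsg.Agent.Lib.Helper3.CharKernel
import Cfsg.Agent.Lib.Helper48.Generation

/-!
# S3805, package `PkgEnd` (case A endgame)

The kernels `L'` of `(E1, F1)` and `L` of `(E3, F3)` are normal subgroups meeting `N_G(T)`
in complementary factors; `L ⊓ L' = 1` by coprime generation, so `L'` centralizes `a ∈ L`,
hence lies in `N_G(T)`; every conjugate of `b` lies in `L'`, so `TI` gives `N_G(T) = G`.
-/

set_option autoImplicit false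
set_option maxRecDepth 100000

namespace Cfsg.Agent.Lib.Helper85.S3805

open Cfsg.Agent.Lib.Helper9.S3805
open scoped Pointwise

universe u

/-- The kernel of an irreducible character is a normal subgroup. -/
theorem exists_char_kernel {G : Type u} [Group G] [Finite G] (χ : G → ℂ)
    (h : Cfsg.IsIrrCharacter G χ) :
    ∃ K : Subgroup G, K.Normal ∧ ∀ g, g ∈ K ↔ χ g = χ 1 := by
  obtain ⟨n, ρ, -, rfl⟩ := h
  refine ⟨MonoidHom.ker ρ, MonoidHom.normal_ker ρ, fun g => ?_⟩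
  rw [MonoidHom.mem_ker, Representation.char_one,
    Cfsg.Agent.Lib.Helper3.character_eq_finrank_iff]
  rfl

theorem P_comm_bj : b₀ * j₀ * b₀⁻¹ * j₀⁻¹ = b₀⁻¹ := by decide

theorem P_exists_comm : ∀ p : P, p ≠ 1 → ∃ q : P,
    inA1 (p * q * p⁻¹ * q⁻¹) = true ∨
      inA1 ((p * q * p⁻¹ * q⁻¹).2, (p * q * p⁻¹ * q⁻¹).1) = true := by decide

theorem P_T_comm : ∀ p q : P, inT p = true → inT q = true → p * q = q * p := by decide

theorem P_T_exp : ∀ p : P, inT p = true → p ^ 3 = 1 := by decide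

theorem P_T_card : Fintype.card {p : P // inT p = true} = 9 := by decide

theorem P_a_ne : a₀ ≠ 1 := by decide

theorem P_a_inT : inT a₀ = true := by decide

theorem P_b_ne : b₀ ≠ 1 := by decide

theorem P_b_inT : inT b₀ = true := by decide

/-- The common kernel of an exceptional pair which contains `j`. -/
theorem exists_L {G : Type u} [Group G] [Finite G] {T : Subgroup G} (M : Model G T)
    (E F : G → ℂ) (h : Exc1 M E F) (hE : E (M.ψ j₀) = E 1) (hF : F (M.ψ j₀) = F 1) :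
    ∃ L : Subgroup G, L.Normal ∧ M.ψ j₀ ∈ L ∧ M.ψ b₀ ∈ L ∧
      ∀ p : P, inA1 p = true → M.ψ p ∉ L := by
  obtain ⟨K1, hK1n, hK1⟩ := exists_char_kernel E h.irrE
  obtain ⟨K2, hK2n, hK2⟩ := exists_char_kernel F h.irrF
  have hj : M.ψ j₀ ∈ K1 ⊓ K2 := ⟨(hK1 _).2 hE, (hK2 _).2 hF⟩
  have hn : (K1 ⊓ K2).Normal := inferInstance
  refine ⟨K1 ⊓ K2, hn, hj, ?_, ?_⟩
  · have h1 : M.ψ b₀ * M.ψ j₀ * (M.ψ b₀)⁻¹ * (M.ψ j₀)⁻¹ = (M.ψ b₀)⁻¹ := by
      rw [← map_inv, ← map_inv, ← map_mul, ← map_mul, ← map_mul, P_comm_bj, map_inv]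
    have h2 : (M.ψ b₀)⁻¹ ∈ K1 ⊓ K2 := by
      rw [← h1]
      exact (K1 ⊓ K2).mul_mem (hn.conj_mem _ hj _) ((K1 ⊓ K2).inv_mem hj)
    exact (Subgroup.inv_mem_iff _).1 h2
  · intro p hp hmem
    have h1 := h.on p hp
    rw [(hK1 _).1 hmem.1, (hK2 _).1 hmem.2, h.deg] at h1
    have h2 : (1 : ℂ) = -2 := by linear_combination h1
    norm_num at h2

theorem pkgEnd : PkgEnd.{u} := by
  intro hTI G _ _ T M hLoc E1 F1 E3 F3 h1 h3 hE1 hF1 hE3 hF3
  obtain ⟨L', hL'n, hjL', hbL', hAL'⟩ := exists_L M E1 F1 h1 hE1 hF1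
  obtain ⟨L, hLn, hiL, haL, hAL⟩ := exists_L M.swap E3 F3 h3 hE3 hF3
  have haL' : M.ψ a₀ ∈ L := haL
  have hrange : ∀ x ∈ Subgroup.normalizer ((T : Subgroup G) : Set G), ∃ p, M.ψ p = x := by
    intro x hx
    rw [← M.range_eq] at hx
    exact hx
  have hTle : (T : Subgroup G) ≤ Subgroup.normalizer ((T : Subgroup G) : Set G) :=
    Subgroup.le_normalizer
  have hT : ∀ x ∈ (T : Subgroup G), ∃ p, inT p = true ∧ M.ψ p = x := by
    intro x hx
    obtain ⟨p, rfl⟩ := hrange x (hTle hx)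
    exact ⟨p, (M.mem_T p).1 hx, rfl⟩
  -- `L ⊓ L'` meets `N` trivially
  have hD : ∀ p : P, M.ψ p ∈ L → M.ψ p ∈ L' → p = 1 := by
    intro p hpL hpL'
    by_contra hne
    obtain ⟨q, hq⟩ := P_exists_comm p hne
    have hc : ∀ K : Subgroup G, K.Normal → M.ψ p ∈ K → M.ψ (p * q * p⁻¹ * q⁻¹) ∈ K := by
      intro K hK hp
      have e : M.ψ (p * q * p⁻¹ * q⁻¹) = M.ψ p * (M.ψ q * (M.ψ p)⁻¹ * (M.ψ q)⁻¹) := by
        simp only [map_mul, map_inv, mul_assoc]
      rw [e]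
      exact K.mul_mem hp (hK.conj_mem _ (K.inv_mem hp) _)
    rcases hq with hq | hq
    · exact hAL' _ hq (hc L' hL'n hpL')
    · exact hAL _ hq (hc L hLn hpL)
  have hDn : (L ⊓ L').Normal := inferInstance
  have hDN : ∀ x ∈ L ⊓ L', x ∈ Subgroup.normalizer ((T : Subgroup G) : Set G) → x = 1 := by
    intro x hxD hxN
    obtain ⟨p, rfl⟩ := hrange x hxN
    rw [hD p hxD.1 hxD.2, map_one]
  haveI : Fact (Nat.Prime 3) := ⟨Nat.prime_three⟩
  -- `3 ∤ |L ⊓ L'|`
  have h3' : ¬ 3 ∣ Nat.card (L ⊓ L' : Subgroup G) := by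
    intro hdvd
    obtain ⟨x, hx⟩ := exists_prime_orderOf_dvd_card' 3 hdvd
    have hpg : IsPGroup 3 (Subgroup.zpowers (x : G)) := by
      apply IsPGroup.of_card (n := 1)
      rw [Nat.card_zpowers, Subgroup.orderOf_coe, hx, pow_one]
    obtain ⟨Q, hQ⟩ := hpg.exists_le_sylow
    obtain ⟨g, hg⟩ := MulAction.exists_smul_eq G Q T
    have hxT : g * (x : G) * g⁻¹ ∈ (T : Subgroup G) := by
      have h1 : MulAut.conj g • (x : G) ∈ MulAut.conj g • (Q : Subgroup G) :=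
        Subgroup.smul_mem_pointwise_smul _ _ _ (hQ (Subgroup.mem_zpowers _))
      rw [← Sylow.coe_subgroup_smul, hg] at h1
      exact h1
    have h2 : g * (x : G) * g⁻¹ = 1 := hDN _ (hDn.conj_mem _ x.2 g) (hTle hxT)
    have hx1 : (x : G) = 1 := by
      have := congrArg (fun y => g⁻¹ * y * g) h2
      simpa [mul_assoc] using this
    rw [← Subgroup.orderOf_coe, hx1, orderOf_one] at hx
    norm_num at hx
  -- `T` is a non-cyclic elementary abelian `3`-group
  have hcomm : ∀ x ∈ (T : Subgroup G), ∀ y ∈ (T : Subgroup G), x * y = y * x := by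
    intro x hx y hy
    obtain ⟨p, hp, rfl⟩ := hT x hx
    obtain ⟨q, hq, rfl⟩ := hT y hy
    rw [← map_mul, ← map_mul, P_T_comm p q hp hq]
  have hexp : ∀ x ∈ (T : Subgroup G), x ^ 3 = 1 := by
    intro x hx
    obtain ⟨p, hp, rfl⟩ := hT x hx
    rw [← map_pow, P_T_exp p hp, map_one]
  have hcard : 9 ≤ Nat.card (T : Subgroup G) := by
    have hinj : Function.Injective
        (fun p : {p : P // inT p = true} => (⟨M.ψ p.1, (M.mem_T p.1).2 p.2⟩ : (T : Subgroup G))) := by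
      intro p q hpq
      exact Subtype.ext (M.inj (congrArg Subtype.val hpq))
    have := Nat.card_le_card_of_injective _ hinj
    rwa [Nat.card_eq_fintype_card, P_T_card] at this
  have hnc : ¬ IsCyclic (T : Subgroup G) := by
    intro hcyc
    have h1 : Monoid.exponent (T : Subgroup G) = Nat.card (T : Subgroup G) :=
      IsCyclic.exponent_eq_card
    have h2 : Monoid.exponent (T : Subgroup G) ∣ 3 := by
      apply Monoid.exponent_dvd_of_forall_pow_eq_one
      intro x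
      exact Subtype.ext (hexp x x.2)
    have h3 := Nat.le_of_dvd (by norm_num) h2
    omega
  -- coprime generation: `L ⊓ L' = 1`
  have hbot : L ⊓ L' ≤ ⊥ := by
    apply Cfsg.Agent.Lib.Helper48.coprime_generation_le (p := 3) (L ⊓ L') (T : Subgroup G)
      hcomm hexp hnc h3'
    · rw [Subgroup.normalizer_eq_top]
      exact le_top
    · intro u hu hu1 x hx
      rw [Subgroup.mem_bot]
      exact hDN x hx.1 (hLoc u hu hu1 hx.2)
  have hdisj : Disjoint L L' := disjoint_iff_inf_le.2 hbot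
  -- every conjugate of `b` lies in `L'`, hence centralizes `a`, hence lies in `N`
  have haT : M.ψ a₀ ∈ (T : Subgroup G) := (M.mem_T a₀).2 P_a_inT
  have ha1 : M.ψ a₀ ≠ 1 := by
    intro h
    rw [← map_one M.ψ] at h
    exact P_a_ne (M.inj h)
  rw [eq_top_iff]
  intro g _
  have hgb : g * M.ψ b₀ * g⁻¹ ∈ L' := hL'n.conj_mem _ hbL' g
  have hcomm2 : Commute (M.ψ a₀) (g * M.ψ b₀ * g⁻¹) :=
    Subgroup.commute_of_normal_of_disjoint L L' hLn hL'n hdisj _ _ haL' hgb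
  have hcen : g * M.ψ b₀ * g⁻¹ ∈ Subgroup.centralizer ({M.ψ a₀} : Set G) := by
    rw [Subgroup.mem_centralizer_iff]
    intro h hh
    rw [Set.mem_singleton_iff] at hh
    rw [hh]
    exact hcomm2.eq
  obtain ⟨q, hq⟩ := hrange _ (hLoc _ haT ha1 hcen)
  exact hTI (T : Subgroup G) M hLoc g b₀ q P_b_inT P_b_ne hq.symm

end Cfsg.Agent.Lib.Helper85.S3805
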